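import Cfsg.Agent.Lib.ToddCox.Rep
set_option autoImplicit false
set_option maxRecDepth 100000
namespace Cfsg.Agent.Lib.ToddCox.A4T
def T_0 : ℕ := 0x40003000080000
def T_1 : ℕ := 0x80003000000001
def T_2 : ℕ := 0x800010000c0000
end Cfsg.Agent.Lib.ToddCox.A4T
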